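import Cfsg.Agent.H745.MetaTwo
import Cfsg.Agent.OddUThree.Count

/-!
# Metacyclic 2-groups with automorphisms of odd order (helper745)
-/

set_option autoImplicit false

namespace Cfsg.Agent.H745.MetaTwo

open Cfsg

variable {T : Type*} [Group T] [Finite T]

omit [Finite T] in
theorem pow_inv {κ : MulAut T} {W : Subgroup T} (hW : ∀ x ∈ W, κ x ∈ W) (j : ℕ) :
    ∀ x ∈ W, (κ ^ j) x ∈ W := by
  induction j with
  | zero => intro x hx; simpa using hx
  | succ j ih =>
    intro x hx
    rw [pow_succ, MulAut.mul_apply]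
    exact ih _ (hW x hx)

omit [Finite T] in
/-- An automorphism of finite order acts trivially on the cosets of an invariant subgroup `W` in an invariant
subgroup `U` if `U` is covered by two cosets of `W`. -/
theorem stab_of_two {κ : MulAut T} {m : ℕ} (hm : m ≠ 0) (hκ : κ ^ m = 1) {W U : Subgroup T}
    (hW : ∀ x ∈ W, κ x ∈ W) (hU : ∀ x ∈ U, κ x ∈ U) (t : T)
    (h : ∀ y ∈ U, y ∈ W ∨ t⁻¹ * y ∈ W) : ∀ y ∈ U, y⁻¹ * κ y ∈ W := by
  intro y hy
  by_cases hyW : y ∈ W
  · exact W.mul_mem (W.inv_mem hyW) (hW y hyW)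
  · have h1 : κ y ∉ W := by
      intro hk
      apply hyW
      have h2 := pow_inv hW (m - 1) _ hk
      rw [← MulAut.mul_apply, ← pow_succ, Nat.sub_add_cancel (Nat.one_le_iff_ne_zero.2 hm), hκ] at h2
      exact h2
    have h2 := (h y hy).resolve_left hyW
    have h3 := (h _ (hU y hy)).resolve_left h1
    have h4 : y⁻¹ * κ y = (t⁻¹ * y)⁻¹ * (t⁻¹ * κ y) := by group
    rw [h4]
    exact W.mul_mem (W.inv_mem h2) h3

/-- Step 1: if `κ` is a nontrivial automorphism of odd order then `T = N (κ N)`. -/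
theorem sup_map_eq_top (h2 : IsPGroup 2 T) (N : Subgroup T) [hN : N.Normal] [IsCyclic N]
    [IsCyclic (T ⧸ N)] (κ : MulAut T) {m : ℕ} (hm : ¬ 2 ∣ m) (hκ : κ ^ m = 1) (hκ1 : κ ≠ 1) :
    N ⊔ N.map κ.toMonoidHom = ⊤ := by
  have hm0 : m ≠ 0 := fun h => hm (h ▸ dvd_zero 2)
  by_contra hcon
  have hcon' : (N ⊔ N.map κ.toMonoidHom) ⊔ frattini T ≠ ⊤ := fun h => hcon (frattini_nongenerating h)
  set K := (N ⊔ N.map κ.toMonoidHom) ⊔ frattini T with hK
  have hsq : ∀ x : T, x * x ∈ frattini T := by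
    intro x
    have h1 := H940.frattini_quot_pow (p := 2) h2 (x : T ⧸ frattini T)
    rw [← QuotientGroup.mk_pow, QuotientGroup.eq_one_iff, pow_two] at h1
    exact h1
  have hΦκ : ∀ x ∈ frattini T, κ x ∈ frattini T := by
    intro x hx
    have h1 : (frattini T).map κ.toMonoidHom = frattini T :=
      (Subgroup.characteristic_iff_map_eq.1 frattini_characteristic) κ
    rw [← h1]
    exact ⟨x, hx, rfl⟩
  obtain ⟨t, ht⟩ := exists_gen N
  have hNK : N ≤ K := le_sup_left.trans le_sup_left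
  have htK : t ∉ K := by
    intro h
    apply hcon'
    rw [eq_top_iff]
    intro g _
    obtain ⟨k, hk⟩ := ht g
    have h1 := K.mul_mem (K.pow_mem h k) (hNK hk)
    rwa [mul_inv_cancel_left] at h1
  have hcase : ∀ g : T, g ∈ N ⊔ frattini T ∨ t⁻¹ * g ∈ N ⊔ frattini T := by
    intro g
    obtain ⟨k, hk⟩ := ht g
    have hv : (t ^ k)⁻¹ * g ∈ N ⊔ frattini T := (le_sup_left : N ≤ N ⊔ frattini T) hk
    rcases Nat.even_or_odd k with ⟨b, hb⟩ | ⟨b, hb⟩
    · left
      have h1 : t ^ k ∈ N ⊔ frattini T := by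
        rw [hb, pow_add]
        exact (le_sup_right : frattini T ≤ N ⊔ frattini T) (hsq _)
      have h3 := Subgroup.mul_mem _ h1 hv
      rwa [mul_inv_cancel_left] at h3
    · right
      have h1 : t⁻¹ * t ^ k ∈ N ⊔ frattini T := by
        rw [hb, pow_succ', inv_mul_cancel_left, two_mul, pow_add]
        exact (le_sup_right : frattini T ≤ N ⊔ frattini T) (hsq _)
      have h3 := Subgroup.mul_mem _ h1 hv
      rwa [mul_assoc, mul_inv_cancel_left] at h3
  have hMK : N ⊔ frattini T ≤ K := sup_le hNK le_sup_right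
  have hKM : ∀ g ∈ K, g ∈ N ⊔ frattini T := by
    intro g hg
    rcases hcase g with h | h
    · exact h
    · exfalso
      apply htK
      have h1 := K.mul_mem hg (K.inv_mem (hMK h))
      have h3 : g * (t⁻¹ * g)⁻¹ = t := by group
      rwa [h3] at h1
  have hM : ∀ x ∈ N ⊔ frattini T, κ x ∈ N ⊔ frattini T := by
    intro x hx
    apply hKM
    have h1 : (N ⊔ frattini T).map κ.toMonoidHom ≤ K := by
      rw [Subgroup.map_sup]
      refine sup_le (le_sup_right.trans le_sup_left) ?_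
      rintro _ ⟨y, hy, rfl⟩
      exact (le_sup_right : frattini T ≤ K) (hΦκ y hy)
    exact h1 ⟨x, hx, rfl⟩
  have hst1 := stab_of_two hm0 hκ (W := N ⊔ frattini T) (U := ⊤) hM (fun _ _ => Subgroup.mem_top _) t
    (fun y _ => hcase y)
  obtain ⟨⟨x, hx⟩, hgen⟩ := IsCyclic.exists_generator (α := N)
  have hst2 := stab_of_two hm0 hκ (W := frattini T) (U := N ⊔ frattini T) hΦκ hM x (by
    intro y hy
    obtain ⟨v, hv, φ, hφ, rfl⟩ := Subgroup.mem_sup_of_normal_right.1 hy
    obtain ⟨i, hi⟩ := (mem_powers_iff_mem_zpowers).2 (hgen ⟨v, hv⟩)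
    have hi' : x ^ i = v := congrArg Subtype.val hi
    rcases Nat.even_or_odd i with ⟨b, hb⟩ | ⟨b, hb⟩
    · left
      refine Subgroup.mul_mem _ ?_ hφ
      rw [← hi', hb, pow_add]
      exact hsq _
    · right
      rw [← mul_assoc]
      refine Subgroup.mul_mem _ ?_ hφ
      rw [← hi', hb, pow_succ', inv_mul_cancel_left, two_mul, pow_add]
      exact hsq _)
  have hκ2 : ∀ y : T, y⁻¹ * (κ ^ 2) y ∈ frattini T := by
    intro y
    set μ := y⁻¹ * κ y with hμ
    have h1 := hst1 y (Subgroup.mem_top y)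
    have h3 : y⁻¹ * (κ ^ 2) y = (μ * μ) * (μ⁻¹ * κ μ) := by
      rw [pow_two, MulAut.mul_apply, hμ, map_mul, map_inv]; group
    rw [h3]
    exact Subgroup.mul_mem _ (hsq _) (hst2 μ h1)
  apply hκ1
  apply eq_one_of_sq hm hκ
  refine burnside h2 (κ ^ 2) hm (by rw [← pow_mul, mul_comm, pow_mul, hκ, one_pow]) (fun y => ?_)
  have h1 : (frattini T).Normal := inferInstance
  have h3 := h1.conj_mem _ (hκ2 y) y
  rwa [mul_inv_cancel_left] at h3

omit [Finite T] in
/-- The first element outside of a proper subgroup of a cyclic 2-group. -/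
theorem exists_next {x : T} {n : ℕ} (hx : orderOf x = 2 ^ n) {D : Subgroup T}
    (hD : D ≤ Subgroup.zpowers x) (hxD : x ∉ D) :
    ∃ u ∈ Subgroup.zpowers x, u ∉ D ∧ u * u ∈ D ∧ D ≤ Subgroup.zpowers (u * u) := by
  classical
  have hex : ∃ f : ℕ, x ^ 2 ^ f ∈ D := ⟨n, by rw [← hx, pow_orderOf_eq_one]; exact D.one_mem⟩
  have hspec := Nat.find_spec hex
  set f := Nat.find hex with hf
  have hf0 : f ≠ 0 := by
    intro h
    rw [h] at hspec
    simp at hspec
    exact hxD hspec
  obtain ⟨g, hg⟩ : ∃ g, f = g + 1 := ⟨f - 1, by omega⟩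
  have huu : x ^ 2 ^ g * x ^ 2 ^ g = x ^ 2 ^ f := by
    rw [← pow_add, hg, pow_succ, mul_two]
  refine ⟨x ^ 2 ^ g, ⟨((2 ^ g : ℕ) : ℤ), by simp [← zpow_natCast]⟩,
    Nat.find_min hex (by omega), by rw [huu]; exact hspec, ?_⟩
  rw [huu]
  intro d hd
  have hpos : 0 < orderOf x := by rw [hx]; positivity
  have hfin : IsOfFinOrder x := orderOf_pos_iff.1 hpos
  obtain ⟨i, hi⟩ := (hfin.mem_powers_iff_mem_zpowers).2 (hD hd)
  simp only at hi
  rcases Nat.eq_zero_or_pos i with h0 | hipos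
  · rw [← hi, h0, pow_zero]; exact Subgroup.one_mem _
  · obtain ⟨j, o, ho, hio⟩ := Nat.exists_eq_two_pow_mul_odd (n := i) (by omega)
    have hcop : o.Coprime (orderOf (x ^ 2 ^ j)) := by
      have h1 : orderOf (x ^ 2 ^ j) ∣ 2 ^ n := by
        rw [← hx]; exact orderOf_pow_dvd _
      refine Nat.Coprime.coprime_dvd_right h1 (Nat.Coprime.pow_right _ ?_)
      exact (Nat.coprime_two_right).2 ho
    obtain ⟨r, hr⟩ := exists_pow_eq_self_of_coprime hcop
    rw [← pow_mul x, ← hio, hi] at hr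
    have hjD : x ^ 2 ^ j ∈ D := by rw [← hr]; exact D.pow_mem hd r
    have hfj : f ≤ j := Nat.find_min' hex hjD
    obtain ⟨l, hl⟩ := pow_dvd_pow 2 hfj
    rw [← hi, hio, hl, mul_assoc, pow_mul]
    exact Subgroup.pow_mem _ (Subgroup.mem_zpowers _) _

omit [Finite T] in
/-- In a cyclic subgroup `N` with a subgroup `D`, `u ∈ N` outside `D` with `u² ∈ D`: the elements of `N` with square
in `D` are in `D ∪ u D`. -/
theorem mem_or_of_sq' [Finite T] (N D : Subgroup T) [IsCyclic N] {a u : T} (ha : a ∈ N) (hu : u ∈ N)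
    (haD : a * a ∈ D) (huD : u * u ∈ D) (hu1 : u ∉ D) : a ∈ D ∨ u⁻¹ * a ∈ D := by
  have hcomm : ∀ x y : N, x * y = y * x := fun x y => by
    let _ : CommGroup N := IsCyclic.commGroup
    exact mul_comm x y
  have hn : (D.subgroupOf N).Normal := ⟨fun n hn g => by rw [hcomm g n]; simpa using hn⟩
  have hc : IsCyclic (N ⧸ D.subgroupOf N) :=
    isCyclic_of_surjective (QuotientGroup.mk' (D.subgroupOf N)) (QuotientGroup.mk'_surjective _)
  rcases mem_or_of_sq (D.subgroupOf N) (a := (⟨a, ha⟩ : N)) (b := ⟨u, hu⟩) haD huD hu1 with h | h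
  · exact Or.inl h
  · exact Or.inr h

/-- A metacyclic 2-group `T` with a nontrivial automorphism `κ` of odd order is `N × κ N`, or contains a quaternion
group of order 8. -/
theorem structure_of_odd_aut (h2 : IsPGroup 2 T) (N : Subgroup T) [hN : N.Normal] [IsCyclic N]
    [IsCyclic (T ⧸ N)] (κ : MulAut T) {m : ℕ} (hm : ¬ 2 ∣ m) (hκ : κ ^ m = 1) (hκ1 : κ ≠ 1) :
    (N ⊔ N.map κ.toMonoidHom = ⊤ ∧ N ⊓ N.map κ.toMonoidHom = ⊥) ∨
      ∃ u v : T, u * u = v * v ∧ u * u ≠ 1 ∧ (u * u) * (u * u) = 1 ∧ v * u * v⁻¹ = u⁻¹ := by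
  have hm0 : m ≠ 0 := fun h => hm (h ▸ dvd_zero 2)
  have htop := sup_map_eq_top h2 N κ hm hκ hκ1
  set N' := N.map κ.toMonoidHom with hN'
  by_cases hbot : N ⊓ N' = ⊥
  · exact Or.inl ⟨htop, hbot⟩
  right
  have hN'n : N'.Normal := hN.map κ.toMonoidHom κ.surjective
  have hN'c : IsCyclic N' := isCyclic_of_surjective (κ.toMonoidHom.subgroupMap N)
    (κ.toMonoidHom.subgroupMap_surjective N)
  set D := N ⊓ N' with hD
  have hcommN : ∀ x ∈ N, ∀ y ∈ N, x * y = y * x := fun x hx y hy => by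
    let _ : CommGroup N := IsCyclic.commGroup
    exact congrArg Subtype.val (mul_comm (⟨x, hx⟩ : N) ⟨y, hy⟩)
  have hcommN' : ∀ x ∈ N', ∀ y ∈ N', x * y = y * x := fun x hx y hy => by
    let _ : CommGroup N' := IsCyclic.commGroup
    exact congrArg Subtype.val (mul_comm (⟨x, hx⟩ : N') ⟨y, hy⟩)
  -- every element is a product
  have hprod : ∀ g : T, ∃ a ∈ N, ∃ b ∈ N', a * b = g := by
    intro g
    have h1 : g ∈ N ⊔ N' := by rw [htop]; exact Subgroup.mem_top g
    exact Subgroup.mem_sup_of_normal_right.1 h1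
  -- `D` is central
  have hDc : ∀ d ∈ D, ∀ g : T, d * g = g * d := by
    intro d hd g
    obtain ⟨a, ha, b, hb, rfl⟩ := hprod g
    rw [← mul_assoc, hcommN d hd.1 a ha, mul_assoc, hcommN' d hd.2 b hb, mul_assoc]
  -- `D` is invariant
  have hcardN' : Nat.card N' = Nat.card N :=
    Nat.card_congr (N.equivMapOfInjective κ.toMonoidHom κ.injective).symm.toEquiv
  have hDκ : D.map κ.toMonoidHom = D := by
    refine OddUThree.Count.eq_of_card' N' (Subgroup.map_mono inf_le_left) inf_le_right ?_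
    exact Nat.card_congr (D.equivMapOfInjective κ.toMonoidHom κ.injective).symm.toEquiv
  have hDκ' : ∀ x ∈ D, κ x ∈ D := fun x hx => by rw [← hDκ]; exact ⟨x, hx, rfl⟩
  have hDκinv : ∀ x, κ x ∈ D → x ∈ D := by
    intro x hx
    rw [← hDκ] at hx
    obtain ⟨y, hy, hyx⟩ := hx
    rw [← κ.injective hyx]; exact hy
  have hDcyc : IsCyclic D := by
    have h1 : IsCyclic (D.subgroupOf N) := inferInstance
    exact isCyclic_of_surjective (Subgroup.subgroupOfEquivOfLe (inf_le_left : D ≤ N)).toMonoidHom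
      (Subgroup.subgroupOfEquivOfLe (inf_le_left : D ≤ N)).surjective
  have hfix := fix_of_cyclic h2 D κ hDκ' hm hκ
  -- a generator of `N`
  obtain ⟨⟨x, hx⟩, hgen⟩ := IsCyclic.exists_generator (α := N)
  have hNz : N = Subgroup.zpowers x := by
    apply le_antisymm
    · intro v hv
      obtain ⟨i, hi⟩ := hgen ⟨v, hv⟩
      exact ⟨i, congrArg Subtype.val hi⟩
    · rw [Subgroup.zpowers_le]; exact hx
  obtain ⟨n, hn⟩ := (IsPGroup.iff_orderOf.1 h2) x
  have hxD : x ∉ D := by
    intro h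
    have h1 : N ≤ N' := by
      rw [hNz, Subgroup.zpowers_le]; exact h.2
    have h3 : N = N' := Subgroup.eq_of_le_of_card_ge h1 hcardN'.le
    have h4 : N = ⊤ := by rw [← h3, sup_idem] at htop; exact htop
    have h5 := fix_of_cyclic h2 N κ (fun y _ => by rw [h4]; exact Subgroup.mem_top _) hm hκ
    apply hκ1
    ext y
    exact h5 y (by rw [h4]; exact Subgroup.mem_top _)
  obtain ⟨u, huN, huD, huu, hDu⟩ := exists_next hn (hNz ▸ (inf_le_left : D ≤ N)) hxD
  rw [← hNz] at huN
  set w := u * u with hw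
  have hwfix : κ w = w := hfix w huu
  set v := κ u with hv
  have hvN' : v ∈ N' := ⟨u, huN, rfl⟩
  have hvv : v * v = w := by rw [hv, ← map_mul, ← hw, hwfix]
  have hvD : v ∉ D := fun h => huD (hDκinv u h)
  have hw1 : w ≠ 1 := by
    intro h
    apply hbot
    rw [eq_bot_iff]
    rw [h, Subgroup.zpowers_one_eq_bot] at hDu
    exact hDu
  -- the commutator
  set c := v * u * v⁻¹ * u⁻¹ with hc
  have hcD : c ∈ D := by
    constructor
    · exact N.mul_mem (hN.conj_mem u huN v) (N.inv_mem huN)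
    · have h1 := N'.mul_mem hvN' (hN'n.conj_mem _ (N'.inv_mem hvN') u)
      have h3 : v * (u * v⁻¹ * u⁻¹) = c := by rw [hc]; group
      rwa [h3] at h1
  have hvu : v * u = c * (u * v) := by rw [hc]; group
  have hcc : c * c = 1 := by
    have h1 : (v * v) * u = c * c * (u * (v * v)) := by
      calc (v * v) * u = v * (v * u) := by group
        _ = v * (c * (u * v)) := by rw [hvu]
        _ = (v * c) * (u * v) := by group
        _ = (c * v) * (u * v) := by rw [← hDc c hcD v]
        _ = c * (v * u) * v := by group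
        _ = c * (c * (u * v)) * v := by rw [hvu]
        _ = c * c * (u * (v * v)) := by group
    rw [hvv, hDc w huu u] at h1
    have h3 : c * c = (u * w) * (u * w)⁻¹ := by
      rw [eq_mul_inv_iff_mul_eq]; exact h1.symm
    rw [h3, mul_inv_cancel]
  -- `κ² u`
  obtain ⟨a, ha, b, hb, hab⟩ := hprod (κ v)
  have hκvv : κ v * κ v = w := by rw [← map_mul, hvv, hwfix]
  have he : ∃ e ∈ D, b * a = a * b * e := by
    refine ⟨b⁻¹ * a⁻¹ * b * a, ⟨?_, ?_⟩, by group⟩
    · have h1 := N.mul_mem (hN.conj_mem _ (N.inv_mem ha) b⁻¹) ha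
      rwa [inv_inv] at h1
    · have h1 := N'.mul_mem (N'.inv_mem hb) (hN'n.conj_mem _ hb a⁻¹)
      have h3 : b⁻¹ * (a⁻¹ * b * a⁻¹⁻¹) = b⁻¹ * a⁻¹ * b * a := by group
      rwa [h3] at h1
  obtain ⟨e, heD, hbae⟩ := he
  have hsq : a * a * (b * b) * e = w := by
    rw [← hκvv, ← hab]
    calc a * a * (b * b) * e = a * a * b * (b * e) := by group
      _ = a * a * b * (e * b) := by rw [hDc e heD b]
      _ = a * (a * b * e) * b := by group
      _ = a * (b * a) * b := by rw [hbae]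
      _ = a * b * (a * b) := by group
  have haa : a * a ∈ D := by
    refine ⟨N.mul_mem ha ha, ?_⟩
    have h1 : a * a = w * e⁻¹ * (b * b)⁻¹ := by rw [← hsq]; group
    rw [h1]
    exact N'.mul_mem (N'.mul_mem huu.2 (N'.inv_mem heD.2)) (N'.inv_mem (N'.mul_mem hb hb))
  have hbb : b * b ∈ D := by
    have h1 : b * b = (a * a)⁻¹ * w * e⁻¹ := by rw [← hsq]; group
    rw [h1]
    exact D.mul_mem (D.mul_mem (D.inv_mem haa) huu) (D.inv_mem heD)
  have ha' := mem_or_of_sq' N D ha huN haa huu huD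
  have hb' := mem_or_of_sq' N' D hb hvN' hbb (by rw [hvv]; exact huu) hvD
  have hkey : ∃ t ∈ D, κ v = u * v * t := by
    rcases ha' with ha' | ha' <;> rcases hb' with hb' | hb'
    · exfalso
      apply hvD
      apply hDκinv
      rw [← hab]; exact D.mul_mem ha' hb'
    · exfalso
      -- `κ v ∈ v D`, so `v ∈ u D`
      have h1 : v⁻¹ * κ v ∈ D := by
        rw [← hab, ← mul_assoc, ← hDc a ha' v⁻¹, mul_assoc]
        exact D.mul_mem ha' hb'
      have h3 : κ (u⁻¹ * v) ∈ D := by rw [map_mul, map_inv]; exact h1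
      have h4 := hDκinv _ h3
      have h5 : v ∈ N := by
        have h6 := N.mul_mem huN h4.1
        rwa [mul_inv_cancel_left] at h6
      exact hvD ⟨h5, hvN'⟩
    · exfalso
      -- `κ² u ∈ u D`
      have h1 : u⁻¹ * κ v ∈ D := by
        rw [← hab, ← mul_assoc]
        exact D.mul_mem ha' hb'
      set d := u⁻¹ * κ v with hd
      have h3 : (κ ^ 2) u = u * d := by
        rw [pow_two, MulAut.mul_apply, ← hv, hd, mul_inv_cancel_left]
      have h4 : ∀ j : ℕ, ((κ ^ 2) ^ j) u = u * d ^ j := by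
        intro j
        induction j with
        | zero => simp
        | succ j ih =>
          have h5 : (κ ^ 2) d = d := by
            rw [pow_two, MulAut.mul_apply, hfix d h1, hfix d h1]
          rw [pow_succ', MulAut.mul_apply, ih, map_mul, map_pow, h5, h3, mul_assoc, ← pow_succ']
      have h5 : d ^ m = 1 := by
        have h6 := h4 m
        rw [← pow_mul, mul_comm, pow_mul, hκ, one_pow, MulAut.one_apply] at h6
        exact (mul_eq_left.1 h6.symm)
      have h6 : d = 1 := by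
        obtain ⟨i, hi⟩ := (IsPGroup.iff_orderOf.1 h2) d
        have h7 : orderOf d ∣ m := orderOf_dvd_of_pow_eq_one h5
        have h8 : Nat.Coprime (orderOf d) m := by
          rw [hi]
          exact Nat.Coprime.pow_left _ ((Nat.prime_two.coprime_iff_not_dvd).2 hm)
        exact orderOf_eq_one_iff.1 (Nat.eq_one_of_dvd_coprimes h8 dvd_rfl h7)
      have h7 : (κ ^ 2) u = u := by rw [h3, h6, mul_one]
      have h8 : κ u = u := by
        obtain ⟨l, hl⟩ : ∃ l, m = 2 * l + 1 := by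
          have : Odd m := by rw [← Nat.not_even_iff_odd, even_iff_two_dvd]; exact hm
          exact this
        have h9 : ∀ j : ℕ, ((κ ^ 2) ^ j) u = u := by
          intro j
          rw [h4, h6, one_pow, mul_one]
        have h10 := h9 (l + 1)
        rw [← pow_mul] at h10
        have h11 : 2 * (l + 1) = m + 1 := by omega
        rw [h11, pow_succ, hκ, one_mul] at h10
        exact h10
      apply hvD
      refine ⟨?_, hvN'⟩
      rw [hv, h8]; exact huN
    · refine ⟨(u⁻¹ * a) * (v⁻¹ * b), D.mul_mem ha' hb', ?_⟩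
      rw [← hab]
      have h1 : u * v * ((u⁻¹ * a) * (v⁻¹ * b)) = u * (v * (u⁻¹ * a)) * (v⁻¹ * b) := by group
      rw [h1, ← hDc _ ha' v]
      group
  obtain ⟨t, htD, hκv⟩ := hkey
  have hfin : c * w * (t * t) = 1 := by
    have h1 : u * v * t * (u * v * t) = c * w * w * (t * t) := by
      calc u * v * t * (u * v * t) = u * v * (t * (u * v)) * t := by group
        _ = u * v * ((u * v) * t) * t := by rw [hDc t htD]
        _ = u * (v * u) * v * (t * t) := by group
        _ = u * (c * (u * v)) * v * (t * t) := by rw [hvu]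
        _ = (u * c) * u * (v * v) * (t * t) := by group
        _ = (c * u) * u * (v * v) * (t * t) := by rw [← hDc c hcD u]
        _ = c * (u * u) * (v * v) * (t * t) := by group
        _ = c * w * w * (t * t) := by rw [hvv]
    rw [← hκv, hκvv] at h1
    have h3 : c * w * w * (t * t) = c * w * (t * t) * w := by
      rw [mul_assoc (c * w) w, hDc w huu (t * t), ← mul_assoc]
    rw [h3] at h1
    exact mul_eq_right.1 h1.symm
  -- `t` is a power of `w`
  obtain ⟨j, hj⟩ := hDu htD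
  simp only at hj
  have hw2 : w * w = 1 := by
    have h1 : c = (w * (t * t))⁻¹ := by
      rw [eq_inv_iff_mul_eq_one, ← mul_assoc]; exact hfin
    have h3 : w ^ (2 * (1 + 2 * j)) = 1 := by
      have h4 : w * (t * t) = w ^ (1 + 2 * j) := by
        rw [← hj, zpow_add, zpow_one, two_mul, zpow_add]
      rw [h1, h4, ← mul_inv_rev, inv_eq_one] at hcc
      rw [two_mul, zpow_add]; exact hcc
    have h4 : ((orderOf w : ℕ) : ℤ) ∣ 2 * (1 + 2 * j) := orderOf_dvd_iff_zpow_eq_one.2 h3
    obtain ⟨i, hi⟩ := (IsPGroup.iff_orderOf.1 h2) w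
    rw [hi] at h4
    have h5 : IsCoprime (((2 ^ i : ℕ) : ℤ)) (1 + 2 * j) := by
      push_cast
      apply IsCoprime.pow_left
      exact ⟨-j, 1, by ring⟩
    have h6 : (((2 ^ i : ℕ)) : ℤ) ∣ 2 := h5.dvd_of_dvd_mul_right h4
    rw [← hi] at h6
    have h7 : w ^ (2 : ℤ) = 1 := orderOf_dvd_iff_zpow_eq_one.1 h6
    rw [zpow_two] at h7
    exact h7
  have htt : t * t = 1 := by
    rw [← hj, ← zpow_add, ← two_mul, zpow_mul, zpow_two, hw2, one_zpow]
  rw [htt, mul_one] at hfin
  refine ⟨u, v, hvv.symm, hw1, hw2, ?_⟩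
  have h1 : c = w⁻¹ := eq_inv_of_mul_eq_one_left hfin
  have h3 : v * u * v⁻¹ = c * u := by rw [hc]; group
  rw [h3, h1, hw]
  group

end Cfsg.Agent.H745.MetaTwo
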