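import Cfsg.Agent.H745.MetaTwoAut

/-!
# Metacyclic 2-groups and automorphisms of the centralizer of a four-group (helper745)
-/

set_option autoImplicit false

namespace Cfsg.Agent.H745.MetaTwo

open Cfsg

variable {P : Type*} [Group P] [Finite P]

omit [Finite P] in
theorem pow_four' (u : P) : u ^ 4 = (u * u) * (u * u) := by
  rw [← pow_two, ← pow_two, ← pow_mul]

/-- Outside the dihedral, quaternion and semidihedral cases there is no quaternion subgroup of order 8. -/
theorem no_quaternion (N : Subgroup P) [hN : N.Normal] [IsCyclic (P ⧸ N)]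
    (hB : ∀ y ∈ N, ∀ g : P, y ^ 4 = 1 → g * g ∈ N → g * y * g⁻¹ = y)
    {u v : P} (huv : u * u = v * v) (h1 : u * u ≠ 1) (h4 : (u * u) * (u * u) = 1)
    (h3 : v * u * v⁻¹ = u⁻¹) : False := by
  have hne : v * u * v⁻¹ ≠ u := by
    intro h
    rw [h] at h3
    apply h1
    nth_rewrite 2 [h3]
    exact mul_inv_cancel u
  have hu4 : u ^ 4 = 1 := by rw [pow_four', h4]
  have hv4 : v ^ 4 = 1 := by rw [pow_four', ← huv, h4]
  have huN : u * u ∈ N := by
    rw [← QuotientGroup.eq_one_iff]
    let _ : CommGroup (P ⧸ N) := IsCyclic.commGroup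
    have h5 : ((v * u * v⁻¹ : P) : P ⧸ N) = (u : P ⧸ N) := by
      rw [QuotientGroup.mk_mul, QuotientGroup.mk_mul, QuotientGroup.mk_inv]
      exact mul_inv_cancel_comm _ _
    rw [h3] at h5
    rw [QuotientGroup.mk_mul]
    nth_rewrite 2 [← h5]
    rw [← QuotientGroup.mk_mul, mul_inv_cancel, QuotientGroup.mk_one]
  have hvN : v * v ∈ N := huv ▸ huN
  by_cases hv : v ∈ N
  · have h5 := hB v hv u hv4 huN
    apply hne
    have h6 : u * v = v * u := mul_inv_eq_iff_eq_mul.1 h5
    rw [← h6, mul_inv_cancel_right]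
  · rcases mem_or_of_sq N huN hvN hv with h | h
    · exact hne (hB u h v hu4 hvN)
    · have hyy : v⁻¹ * u * (v⁻¹ * u) = (v * v)⁻¹ := by
        have h5 : v⁻¹ * u * (v⁻¹ * u) = (v * v)⁻¹ * (v * u * v⁻¹) * u := by group
        rw [h5, h3]; group
      have hy4 : (v⁻¹ * u) ^ 4 = 1 := by
        rw [pow_four', hyy, ← mul_inv_rev, ← huv, h4, inv_one]
      have h5 := hB _ h u hy4 huN
      apply hne
      have h6 : u * v⁻¹ = v⁻¹ * u := by
        have h7 : u * (v⁻¹ * u) * u⁻¹ = u * v⁻¹ := by group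
        rw [← h7]; exact h5
      rw [mul_assoc, h6, mul_inv_cancel_left]

/-- The quotient of a subgroup by its intersection with `N`. -/
theorem isCyclic_quot {G : Type*} [Group G] (N : Subgroup G) [N.Normal] [IsCyclic (G ⧸ N)] (C : Subgroup G) :
    IsCyclic (C ⧸ N.subgroupOf C) := by
  have hle : N.subgroupOf C ≤ N.comap C.subtype := le_rfl
  refine isCyclic_of_injective (QuotientGroup.map (N.subgroupOf C) N C.subtype hle) ?_
  rw [injective_iff_map_eq_one]
  intro x
  induction x using QuotientGroup.induction_on with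
  | H x =>
    intro hx
    rw [QuotientGroup.map_mk, QuotientGroup.eq_one_iff] at hx
    rw [QuotientGroup.eq_one_iff]
    exact hx

/-- In a cyclic 2-group of order at least 4 every element of square one is a square. -/
theorem exists_sq {C : Type*} [Group C] [Finite C] [IsCyclic C] (h2 : IsPGroup 2 C)
    (h : ∃ x : C, x * x ≠ 1) {a : C} (ha : a * a = 1) : ∃ c : C, a = c * c := by
  by_cases ha1 : a = 1
  · exact ⟨1, by rw [ha1, one_mul]⟩
  · obtain ⟨x, hx⟩ := h
    obtain ⟨n, hn⟩ := (IsPGroup.iff_orderOf.1 h2) x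
    have hn2 : 2 ≤ n := by
      by_contra hcon
      apply hx
      rw [← pow_two]
      apply orderOf_dvd_iff_pow_eq_one.1
      rw [hn]
      exact (pow_dvd_pow 2 (show n ≤ 1 by omega)).trans (by norm_num)
    obtain ⟨k, hk⟩ : ∃ k, n = k + 2 := ⟨n - 2, by omega⟩
    have h1 : x ^ 2 ^ (k + 1) * x ^ 2 ^ (k + 1) = 1 := by
      rw [← pow_add, ← two_mul, ← pow_succ', show k + 1 + 1 = n by omega, ← hn, pow_orderOf_eq_one]
    have h3 : x ^ 2 ^ (k + 1) ≠ 1 := by
      intro h
      have h4 : orderOf x ∣ 2 ^ (k + 1) := orderOf_dvd_of_pow_eq_one h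
      rw [hn, Nat.pow_dvd_pow_iff_le_right (by norm_num)] at h4
      omega
    rcases cyc_sq ha h1 h3 with h | h
    · exact absurd h ha1
    · exact ⟨x ^ 2 ^ k, by rw [h, ← pow_add, ← two_mul, ← pow_succ']⟩

/-- Let `P` be a metacyclic 2-group not of maximal class, containing a four-group `⟨z, e⟩`, with `z ∈ N`. If the
centralizer `C` of the four-group has a nontrivial automorphism of odd order then `P` is abelian. -/
theorem comm_of_aut (h2 : IsPGroup 2 P) (N : Subgroup P) [hN : N.Normal] [IsCyclic N]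
    [IsCyclic (P ⧸ N)]
    (hB : ∀ y ∈ N, ∀ g : P, y ^ 4 = 1 → g * g ∈ N → g * y * g⁻¹ = y)
    {z e : P} (hz : z ∈ N) (he : e ∉ N) (hz1 : z ≠ 1) (hzz : z * z = 1) (hee : e * e = 1)
    (C : Subgroup P) (hC : ∀ g : P, g ∈ C ↔ g * e = e * g) (γ : MulAut C) {m : ℕ}
    (hm : ¬ 2 ∣ m) (hγ : γ ^ m = 1) (hγ1 : γ ≠ 1) : ∀ x y : P, x * y = y * x := by
  have hCc := isCyclic_quot N C
  have hN1c : IsCyclic (N.subgroupOf C) := by
    refine isCyclic_of_injective (G' := N) ((C.subtype.comp (N.subgroupOf C).subtype).codRestrict N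
      (fun x => x.2)) ?_
    intro x y hxy
    exact Subtype.ext (Subtype.ext (congrArg (fun t : N => (t : P)) hxy))
  rcases structure_of_odd_aut (h2.to_subgroup C) (N.subgroupOf C) γ hm hγ hγ1 with
    ⟨htop, hbot⟩ | ⟨u, v, huv, hu1, hu2, hu3⟩
  swap
  · exfalso
    exact no_quaternion N hB (u := u) (v := v) (congrArg Subtype.val huv)
      (fun h => hu1 (Subtype.ext h)) (congrArg Subtype.val hu2) (congrArg Subtype.val hu3)
  set N1 := N.subgroupOf C with hN1
  set N1' := N1.map γ.toMonoidHom with hN1'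
  have hN1n : N1.Normal := inferInstance
  have hN1'n : N1'.Normal := hN1n.map γ.toMonoidHom γ.surjective
  have hN1'c : IsCyclic N1' := isCyclic_of_surjective (γ.toMonoidHom.subgroupMap N1)
    (γ.toMonoidHom.subgroupMap_surjective N1)
  have hprod : ∀ c : C, ∃ a ∈ N1, ∃ b ∈ N1', a * b = c := by
    intro c
    have h1 : c ∈ N1 ⊔ N1' := by rw [htop]; exact Subgroup.mem_top c
    exact Subgroup.mem_sup_of_normal_right.1 h1
  have hcN1 : ∀ x ∈ N1, ∀ y ∈ N1, x * y = y * x := fun x hx y hy => by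
    let _ : CommGroup N1 := IsCyclic.commGroup
    exact congrArg Subtype.val (mul_comm (⟨x, hx⟩ : N1) ⟨y, hy⟩)
  have hcN1' : ∀ x ∈ N1', ∀ y ∈ N1', x * y = y * x := fun x hx y hy => by
    let _ : CommGroup N1' := IsCyclic.commGroup
    exact congrArg Subtype.val (mul_comm (⟨x, hx⟩ : N1') ⟨y, hy⟩)
  have hcN : ∀ x ∈ N, ∀ y ∈ N, x * y = y * x := fun x hx y hy => by
    let _ : CommGroup N := IsCyclic.commGroup
    exact congrArg Subtype.val (mul_comm (⟨x, hx⟩ : N) ⟨y, hy⟩)
  have hcx : ∀ x ∈ N1, ∀ y ∈ N1', x * y = y * x := fun x hx y hy =>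
    Subgroup.commute_of_normal_of_disjoint N1 N1' hN1n hN1'n (disjoint_iff.2 hbot) x y hx hy
  have hcC : ∀ x y : C, x * y = y * x := by
    intro x y
    obtain ⟨a, ha, b, hb, rfl⟩ := hprod x
    obtain ⟨a', ha', b', hb', rfl⟩ := hprod y
    calc a * b * (a' * b') = a * (b * a') * b' := by group
      _ = a * (a' * b) * b' := by rw [hcx a' ha' b hb]
      _ = (a * a') * (b * b') := by group
      _ = (a' * a) * (b' * b) := by rw [hcN1 a ha a' ha', hcN1' b hb b' hb']
      _ = a' * (a * b') * b := by group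
      _ = a' * (b' * a) * b := by rw [hcx a ha b' hb']
      _ = a' * b' * (a * b) := by group
  -- `z` is central
  have hzc : ∀ g : P, g * z = z * g := by
    intro g
    have h1 : g * z * g⁻¹ ∈ N := hN.conj_mem z hz g
    have h3 : g * z * g⁻¹ * (g * z * g⁻¹) = 1 := by
      have : g * z * g⁻¹ * (g * z * g⁻¹) = g * (z * z) * g⁻¹ := by group
      rw [this, hzz, mul_one, mul_inv_cancel]
    rcases sq_of_cyclic N h1 hz h3 hzz hz1 with h | h
    · exact absurd (conj_eq_one_iff.1 h) hz1
    · exact mul_inv_eq_iff_eq_mul.1 h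
  have hsq1 : ∀ g : P, g * g = 1 → g = 1 ∨ g = z ∨ g = e ∨ g = z * e := fun g hg =>
    square_one_aux h2 N hB hz he hz1 hzz hee hg
  have he1 : e ≠ 1 := fun h => he (h ▸ N.one_mem)
  have hconj : ∀ g : P, g * e * g⁻¹ = e ∨ g * e * g⁻¹ = z * e := by
    intro g
    have h3 : g * e * g⁻¹ * (g * e * g⁻¹) = 1 := by
      have : g * e * g⁻¹ * (g * e * g⁻¹) = g * (e * e) * g⁻¹ := by group
      rw [this, hee, mul_one, mul_inv_cancel]
    rcases hsq1 _ h3 with h | h | h | h
    · exact absurd (conj_eq_one_iff.1 h) he1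
    · exfalso
      apply he
      have h4 : e = g⁻¹ * z * g := by rw [← h]; group
      rw [h4, mul_assoc, ← hzc g, inv_mul_cancel_left]
      exact hz
    · exact Or.inl h
    · exact Or.inr h
  have hsqC : ∀ g : P, g * g ∈ C := by
    intro g
    rw [hC]
    have h4 : g * g * e * (g * g)⁻¹ = e := by
      have h5 : g * g * e * (g * g)⁻¹ = g * (g * e * g⁻¹) * g⁻¹ := by group
      rw [h5]
      rcases hconj g with h | h
      · rw [h, h]
      · rw [h]
        have h6 : g * (z * e) * g⁻¹ = (g * z) * g⁻¹ * (g * e * g⁻¹) := by group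
        rw [h6, h, hzc g, mul_inv_cancel_right, ← mul_assoc, hzz, one_mul]
    exact mul_inv_eq_iff_eq_mul.1 h4
  -- it is enough to show that `C` is everything
  suffices hall : ∀ g : P, g ∈ C by
    intro x y
    exact congrArg Subtype.val (hcC ⟨x, hall x⟩ ⟨y, hall y⟩)
  obtain ⟨⟨x, hx⟩, hgen⟩ := IsCyclic.exists_generator (α := N)
  have hN' : ∀ v ∈ N, ∃ i : ℤ, v = x ^ i := by
    intro v hv
    obtain ⟨i, hi⟩ := hgen ⟨v, hv⟩
    exact ⟨i, (congrArg Subtype.val hi).symm⟩
  by_cases hxC : x ∈ C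
  · have hNC : ∀ v ∈ N, v ∈ C := by
      intro v hv
      obtain ⟨i, rfl⟩ := hN' v hv
      exact C.zpow_mem hxC i
    obtain ⟨t, ht⟩ := exists_gen N
    have htC : t ∈ C := by
      by_contra htC
      obtain ⟨r, hr⟩ := (IsPGroup.iff_orderOf.1 h2) x
      have hr0 : r ≠ 0 := by
        intro h0
        rw [h0, pow_zero, orderOf_eq_one_iff] at hr
        apply hz1
        obtain ⟨i, hi⟩ := hN' z hz
        rw [hi, hr, one_zpow]
      obtain ⟨r', hr'⟩ : ∃ r', r = r' + 1 := ⟨r - 1, by omega⟩
      set q := 2 ^ r with hq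
      have hqN1 : ∀ a ∈ N1, a ^ q = 1 := by
        intro a ha
        obtain ⟨i, hi⟩ := hN' (a : P) ha
        apply Subtype.ext
        rw [Subgroup.coe_pow, hi, ← zpow_natCast, ← zpow_mul, mul_comm, zpow_mul, zpow_natCast,
          ← hr, pow_orderOf_eq_one, one_zpow]
        rfl
      have hqC : ∀ c : C, c ^ q = 1 := by
        intro c
        obtain ⟨a, ha, b, ⟨b', hb', rfl⟩, rfl⟩ := hprod c
        have h1 : Commute a (γ.toMonoidHom b') := hcC _ _
        rw [h1.mul_pow, hqN1 a ha, ← map_pow, hqN1 b' hb', map_one, one_mul]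
      have htt := hsqC t
      have htq : (t ^ q) * (t ^ q) = 1 := by
        rw [← pow_add, ← two_mul, pow_mul, pow_two]
        exact congrArg Subtype.val (hqC ⟨t * t, htt⟩)
      have htqN : t ^ q ∉ N := by
        intro hcon
        set y : C := γ ⟨x, hxC⟩ with hy
        have hyN1' : y ∈ N1' := ⟨⟨x, hxC⟩, hx, rfl⟩
        obtain ⟨l, hl⟩ := ht (y : P)
        set v := (t ^ l)⁻¹ * (y : P) with hv
        have hyl : (y : P) = t ^ l * v := by rw [hv, mul_inv_cancel_left]
        have hlev : Even l := by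
          by_contra hodd
          rw [Nat.not_even_iff_odd] at hodd
          obtain ⟨b, hb⟩ := hodd
          apply htC
          have h1 : t = (y : P) * v⁻¹ * ((t * t) ^ b)⁻¹ := by
            rw [hyl, hb, ← pow_two, ← pow_mul, pow_succ']; group
          rw [h1]
          exact C.mul_mem (C.mul_mem y.2 (C.inv_mem (hNC v hl))) (C.inv_mem (C.pow_mem htt b))
        obtain ⟨b, hb⟩ := hlev
        have hy2 : (y ^ 2 ^ r' : C) ∈ N1 := by
          show ((y ^ 2 ^ r' : C) : P) ∈ N
          have h1 : y = (⟨t * t, htt⟩ : C) ^ b * ⟨v, hNC v hl⟩ := by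
            apply Subtype.ext
            show (y : P) = (t * t) ^ b * v
            rw [hyl, hb, ← two_mul, pow_mul, pow_two]
          have h3 : Commute ((⟨t * t, htt⟩ : C) ^ b) ⟨v, hNC v hl⟩ := hcC _ _
          rw [h1, h3.mul_pow]
          refine N.mul_mem ?_ (N.pow_mem hl _)
          show ((t * t) ^ b) ^ 2 ^ r' ∈ N
          have h4 : ((t * t) ^ b) ^ 2 ^ r' = (t ^ q) ^ b := by
            rw [← pow_two, ← pow_mul, ← pow_mul, ← pow_mul, hq, hr', pow_succ']
            congr 1
            ring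
          rw [h4]
          exact N.pow_mem hcon b
        have hy3 : (y ^ 2 ^ r' : C) ∈ N1' := N1'.pow_mem hyN1' _
        have hy4 : (y ^ 2 ^ r' : C) = 1 := by
          have : (y ^ 2 ^ r' : C) ∈ N1 ⊓ N1' := ⟨hy2, hy3⟩
          rw [hbot] at this
          exact Subgroup.mem_bot.1 this
        rw [hy, ← map_pow] at hy4
        have hy5 : (⟨x, hxC⟩ : C) ^ 2 ^ r' = 1 := (map_eq_one_iff γ γ.injective).1 hy4
        have hy6 : x ^ 2 ^ r' = 1 := congrArg Subtype.val hy5
        have hy7 : orderOf x ∣ 2 ^ r' := orderOf_dvd_of_pow_eq_one hy6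
        rw [hr, Nat.pow_dvd_pow_iff_le_right (by norm_num)] at hy7
        omega
      apply htC
      rw [hC]
      have hct : t * t ^ q = t ^ q * t := by rw [← pow_succ', ← pow_succ]
      rcases hsq1 _ htq with h | h | h | h
      · exact absurd (h ▸ N.one_mem) htqN
      · exact absurd (h ▸ hz) htqN
      · rw [← h]; exact hct
      · have h1 : e = z * t ^ q := by rw [h, ← mul_assoc, hzz, one_mul]
        rw [h1, ← mul_assoc, hzc t, mul_assoc, hct, mul_assoc]
    intro g
    obtain ⟨k, hk⟩ := ht g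
    have h1 := C.mul_mem (C.pow_mem htC k) (hNC _ hk)
    rwa [mul_inv_cancel_left] at h1
  · exfalso
    -- `x` commutes with the squares of the elements of `C`
    have hcomm : ∀ c ∈ C, x * (c * c) = (c * c) * x := by
      intro c hc
      have h1 : c * (x * x) * c⁻¹ = x * x := by
        have : c * (x * x) = (x * x) * c :=
          congrArg Subtype.val (hcC ⟨c, hc⟩ ⟨x * x, hsqC x⟩)
        rw [this, mul_inv_cancel_right]
      set h := c * x * c⁻¹ * x⁻¹ with hh
      have hhN : h ∈ N := N.mul_mem (hN.conj_mem x hx c) (N.inv_mem hx)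
      have hcx : c * x * c⁻¹ = h * x := by rw [hh]; group
      have hhh : h * h = 1 := by
        have h3 : (h * x) * (h * x) = x * x := by
          rw [← hcx, ← h1]; group
        have h4 : (h * x) * (h * x) = h * h * (x * x) := by
          calc (h * x) * (h * x) = h * (x * h) * x := by group
            _ = h * (h * x) * x := by rw [hcN h hhN x hx]
            _ = h * h * (x * x) := by group
        rw [h4] at h3
        exact mul_eq_right.1 h3
      have hhc : ∀ g : P, g * h = h * g := by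
        rcases sq_of_cyclic N hhN hz hhh hzz hz1 with h3 | h3
        · intro g; rw [h3, mul_one, one_mul]
        · intro g; rw [h3]; exact hzc g
      have h5 : (c * c) * x * (c * c)⁻¹ = x := by
        have h6 : (c * c) * x * (c * c)⁻¹ = c * (c * x * c⁻¹) * c⁻¹ := by group
        rw [h6, hcx]
        have h7 : c * (h * x) * c⁻¹ = (c * h) * c⁻¹ * (c * x * c⁻¹) := by group
        rw [h7, hcx, hhc c, mul_inv_cancel_right, ← mul_assoc, hhh, one_mul]
      exact (mul_inv_eq_iff_eq_mul.1 h5).symm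
    have heC : e ∈ C := (hC e).2 rfl
    by_cases hex : ∃ w : N1, w * w ≠ 1
    · -- `e` is a square
      have hsqe : ∃ c ∈ C, e = c * c := by
        obtain ⟨a, ha, b, hb, hab⟩ := hprod ⟨e, heC⟩
        have h1 : (a * a) * (b * b) = 1 := by
          have h3 : (⟨e, heC⟩ : C) * ⟨e, heC⟩ = 1 := Subtype.ext hee
          rw [← h3, ← hab]
          calc a * a * (b * b) = a * (a * b) * b := by group
            _ = a * (b * a) * b := by rw [hcC a b]
            _ = a * b * (a * b) := by group
        have haa : a * a = 1 := by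
          have h3 : a * a ∈ N1 ⊓ N1' := by
            refine ⟨N1.mul_mem ha ha, ?_⟩
            have h4 : a * a = (b * b)⁻¹ := eq_inv_of_mul_eq_one_left h1
            rw [h4]; exact N1'.inv_mem (N1'.mul_mem hb hb)
          rw [hbot] at h3
          exact Subgroup.mem_bot.1 h3
        have hbb : b * b = 1 := by rw [haa, one_mul] at h1; exact h1
        obtain ⟨c1, hc1⟩ := exists_sq ((h2.to_subgroup C).to_subgroup N1) hex
          (a := ⟨a, ha⟩) (Subtype.ext haa)
        obtain ⟨w, hw⟩ := hex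
        obtain ⟨c2, hc2⟩ := exists_sq ((h2.to_subgroup C).to_subgroup N1')
          ⟨⟨γ (w : C), ⟨w, w.2, rfl⟩⟩, fun h => hw (by
            have h3 : γ (w : C) * γ (w : C) = 1 := congrArg Subtype.val h
            rw [← map_mul, map_eq_one_iff γ γ.injective] at h3
            exact Subtype.ext h3)⟩
          (a := ⟨b, hb⟩) (Subtype.ext hbb)
        have hc1' : a = (c1 : C) * (c1 : C) := congrArg Subtype.val hc1
        have hc2' : b = (c2 : C) * (c2 : C) := congrArg Subtype.val hc2
        refine ⟨(((c1 : C) * (c2 : C) : C) : P), ((c1 : C) * (c2 : C)).2, ?_⟩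
        have h5 : (⟨e, heC⟩ : C) = ((c1 : C) * (c2 : C)) * ((c1 : C) * (c2 : C)) := by
          rw [← hab, hc1', hc2']
          calc (c1 : C) * (c1 : C) * ((c2 : C) * (c2 : C)) = (c1 : C) * ((c1 : C) * (c2 : C)) * (c2 : C) := by
                group
            _ = (c1 : C) * ((c2 : C) * (c1 : C)) * (c2 : C) := by rw [hcC (c1 : C) (c2 : C)]
            _ = (c1 : C) * (c2 : C) * ((c1 : C) * (c2 : C)) := by group
        exact congrArg Subtype.val h5
      obtain ⟨c, hc, hec⟩ := hsqe
      apply hxC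
      rw [hC, hec]
      exact hcomm c hc
    · push Not at hex
      have h1 := hex ⟨⟨x * x, hsqC x⟩, N.mul_mem hx hx⟩
      have h3 : (x * x) * (x * x) = 1 := congrArg (fun t : N1 => ((t : C) : P)) h1
      have h4 := hB x hx e (by rw [pow_four', h3]) (by rw [hee]; exact N.one_mem)
      apply hxC
      rw [hC]
      exact (mul_inv_eq_iff_eq_mul.1 h4).symm

end Cfsg.Agent.H745.MetaTwo
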