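import Cfsg.Agent.H745.Resist
import Cfsg.Agent.H745.MetaTwoComm

/-!
# Strongly closed metacyclic 2-subgroups of saturated fusion systems (helper745)
-/

set_option autoImplicit false

namespace Cfsg.Agent.H745.MetaTwo

open Cfsg Cfsg.FusionSystem Cfsg.Agent.H759

/-- A nontrivial subgroup of a 2-group contains an involution. -/
theorem exists_invol {G : Type*} [Group G] (h2 : IsPGroup 2 G) {H : Subgroup G} (hH : H ≠ ⊥) :
    ∃ z ∈ H, z ≠ 1 ∧ z * z = 1 := by
  obtain ⟨⟨n, hn⟩, hn1⟩ := Subgroup.ne_bot_iff_exists_ne_one.1 hH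
  have hn1' : n ≠ 1 := fun h => hn1 (Subtype.ext h)
  obtain ⟨k, hk⟩ := (IsPGroup.iff_orderOf.1 h2) n
  have hk0 : k ≠ 0 := by
    intro h
    rw [h, pow_zero, orderOf_eq_one_iff] at hk
    exact hn1' hk
  obtain ⟨j, hj⟩ : ∃ j, k = j + 1 := ⟨k - 1, by omega⟩
  refine ⟨n ^ 2 ^ j, H.pow_mem hn _, ?_, ?_⟩
  · intro h
    have h1 : orderOf n ∣ 2 ^ j := orderOf_dvd_of_pow_eq_one h
    rw [hk, Nat.pow_dvd_pow_iff_le_right (by norm_num)] at h1
    omega
  · rw [← pow_add, ← two_mul, ← pow_succ', ← hj, ← hk, pow_orderOf_eq_one]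

variable {Ω : Type*} [Group Ω] {S : Subgroup Ω} {F : FusionSystem S}

/-- The two ways to see an intersection. -/
def swapEquiv (P R : Subgroup Ω) : P.subgroupOf R ≃* R.subgroupOf P where
  toFun y := ⟨⟨(y : R), y.2⟩, (y : R).2⟩
  invFun y := ⟨⟨(y : P), y.2⟩, (y : P).2⟩
  left_inv _ := rfl
  right_inv _ := rfl
  map_mul' _ _ := rfl

theorem comm_of_strongly_closed [Finite S] (hS : IsPGroup 2 S) (hF : F.IsSaturated 2)
    {P : Subgroup Ω} (hP : F.StronglyClosed P)
    (N : Subgroup P) [hN : N.Normal] [IsCyclic N] [IsCyclic (P ⧸ N)]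
    (hB : ∀ y ∈ N, ∀ g : P, y ^ 4 = 1 → g * g ∈ N → g * y * g⁻¹ = y)
    {R : Subgroup Ω} (hRS : R ≤ S) {κ : MulAut R} (hκ : κ ∈ F.autGroup R) {m : ℕ} (hm : ¬ 2 ∣ m)
    (hκm : κ ^ m = 1) {x : R} (hx : (x : Ω) ∈ P) (hκx : κ x ≠ x) : ∀ x y : P, x * y = y * x := by
  have hPS : P ≤ S := hP.1
  have hfR : Finite R := Finite.of_injective _ (Subgroup.inclusion_injective hRS)
  have hfP : Finite P := Finite.of_injective _ (Subgroup.inclusion_injective hPS)
  have h2P : IsPGroup 2 P := hS.to_le hPS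
  have hκR := (mem_autGroup F hRS).1 hκ
  -- the automorphism of `R ∩ P`
  have hinv : ∀ y ∈ P.subgroupOf R, κ y ∈ P.subgroupOf R := fun y hy =>
    StronglyClosed.apply_mem hP hκR (x := y) hy
  obtain ⟨c, hc, hco⟩ := H794.exists_restrict κ (P.subgroupOf R) hinv
  have hcm : c ^ m = 1 := orderOf_dvd_iff_pow_eq_one.1 (hco.trans (orderOf_dvd_of_pow_eq_one hκm))
  set T := R.subgroupOf P with hT
  set β : MulAut T := MulAut.congr (swapEquiv P R) c with hβ
  have hβc : ∀ t : T, ((β t : T) : Ω) = (κ ⟨(t : P), t.2⟩ : R) := by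
    intro t
    have h1 := hc ((swapEquiv P R).symm t)
    exact congrArg Subtype.val h1
  have hβm : β ^ m = 1 := by rw [hβ, ← map_pow, hcm, map_one]
  have hβ1 : β ≠ 1 := by
    intro h
    apply hκx
    have h1 := hβc ⟨⟨(x : Ω), hx⟩, x.2⟩
    rw [h] at h1
    exact Subtype.ext h1.symm
  have hTc := isCyclic_quot N T
  have hNTc : IsCyclic (N.subgroupOf T) := by
    refine isCyclic_of_injective (G' := N) ((T.subtype.comp (N.subgroupOf T).subtype).codRestrict N
      (fun x => x.2)) ?_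
    intro x y hxy
    exact Subtype.ext (Subtype.ext (congrArg (fun t : N => (t : P)) hxy))
  rcases structure_of_odd_aut (h2P.to_subgroup T) (N.subgroupOf T) β hm hβm hβ1 with
    ⟨htop, hbot⟩ | ⟨u, v, huv, hu1, hu2, hu3⟩
  swap
  · exfalso
    exact no_quaternion N hB (u := u) (v := v) (congrArg Subtype.val huv)
      (fun h => hu1 (Subtype.ext h)) (congrArg Subtype.val hu2) (congrArg Subtype.val hu3)
  have hN1 : N.subgroupOf T ≠ ⊥ := by
    intro h
    apply hβ1
    rw [h, Subgroup.map_bot, sup_bot_eq] at htop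
    ext t
    have h1 : t ∈ (⊥ : Subgroup T) := by rw [htop]; exact Subgroup.mem_top t
    rw [Subgroup.mem_bot] at h1
    rw [h1, map_one, map_one]
  obtain ⟨z1, hz1N, hz1, hz1z1⟩ := exists_invol (h2P.to_subgroup T) hN1
  set z : P := (z1 : P) with hz
  set e : P := ((β z1 : T) : P) with he
  have hzN : z ∈ N := hz1N
  have hzne : z ≠ 1 := fun h => hz1 (Subtype.ext h)
  have hzz : z * z = 1 := congrArg Subtype.val hz1z1
  have hee : e * e = 1 := by
    have h1 : β z1 * β z1 = 1 := by rw [← map_mul, hz1z1, map_one]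
    exact congrArg Subtype.val h1
  have heN : e ∉ N := by
    intro h
    have h1 : β z1 ∈ N.subgroupOf T ⊓ (N.subgroupOf T).map β.toMonoidHom := ⟨h, ⟨z1, hz1N, rfl⟩⟩
    rw [hbot, Subgroup.mem_bot, map_eq_one_iff β β.injective] at h1
    exact hz1 h1
  have hzR : (z : Ω) ∈ R := z1.2
  have heR : (e : Ω) ∈ R := (β z1).2
  have hκz : ((κ ⟨z, hzR⟩ : R) : Ω) = e := (hβc z1).symm
  have hsq1 : ∀ g : P, g * g = 1 → g = 1 ∨ g = z ∨ g = e ∨ g = z * e := fun g hg =>
    square_one_aux h2P N hB hzN heN hzne hzz hee hg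
  -- `z` is central
  have hzc : ∀ g : P, g * z = z * g := by
    intro g
    have h1 : g * z * g⁻¹ ∈ N := hN.conj_mem z hzN g
    have h3 : g * z * g⁻¹ * (g * z * g⁻¹) = 1 := by
      have : g * z * g⁻¹ * (g * z * g⁻¹) = g * (z * z) * g⁻¹ := by group
      rw [this, hzz, mul_one, mul_inv_cancel]
    rcases sq_of_cyclic N h1 hzN h3 hzz hzne with h | h
    · exact absurd (conj_eq_one_iff.1 h) hzne
    · exact mul_inv_eq_iff_eq_mul.1 h
  have hcomm1 : ∀ a b : P, a * a = 1 → b * b = 1 → a * b = b * a := by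
    intro a b ha hb
    rcases hsq1 a ha with rfl | rfl | rfl | rfl
    · rw [one_mul, mul_one]
    · exact (hzc b).symm
    · rcases hsq1 b hb with rfl | rfl | rfl | rfl
      · rw [one_mul, mul_one]
      · exact hzc _
      · rfl
      · rw [← mul_assoc, hzc e, mul_assoc]
    · rcases hsq1 b hb with rfl | rfl | rfl | rfl
      · rw [one_mul, mul_one]
      · exact hzc _
      · rw [← mul_assoc, hzc e, mul_assoc]
      · rfl
  let E : Subgroup Ω :=
    { carrier := {g | g ∈ P ∧ g * g = 1}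
      one_mem' := ⟨one_mem _, one_mul 1⟩
      mul_mem' := by
        rintro a b ⟨ha, haa⟩ ⟨hb, hbb⟩
        refine ⟨mul_mem ha hb, ?_⟩
        have h1 : a * b = b * a :=
          congrArg Subtype.val (hcomm1 ⟨a, ha⟩ ⟨b, hb⟩ (Subtype.ext haa) (Subtype.ext hbb))
        calc a * b * (a * b) = a * (b * a) * b := by group
          _ = a * (a * b) * b := by rw [h1]
          _ = (a * a) * (b * b) := by group
          _ = 1 := by rw [haa, hbb, one_mul]
      inv_mem' := by
        rintro a ⟨ha, haa⟩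
        exact ⟨inv_mem ha, by rw [← mul_inv_rev, haa, inv_one]⟩ }
  have hEP : E ≤ P := fun g hg => hg.1
  have hE : F.StronglyClosed E := by
    refine ⟨hEP.trans hPS, fun Q hQ φ hφ y => ⟨hP.2 Q (hQ.trans hEP) φ hφ y, ?_⟩⟩
    have h1 : y * y = 1 := Subtype.ext (hQ y.2).2
    rw [← map_mul, h1, map_one]
  have hzE : (z : Ω) ∈ E := ⟨z.2, congrArg Subtype.val hzz⟩
  have heE : (e : Ω) ∈ E := ⟨e.2, congrArg Subtype.val hee⟩
  have hER : E ≤ R := by
    intro g hg
    rcases hsq1 ⟨g, hg.1⟩ (Subtype.ext hg.2) with h | h | h | h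
    · have : g = 1 := congrArg Subtype.val h
      rw [this]; exact one_mem _
    · have : g = z := congrArg Subtype.val h
      rw [this]; exact hzR
    · have : g = e := congrArg Subtype.val h
      rw [this]; exact heR
    · have : g = z * e := congrArg Subtype.val h
      rw [this]; exact mul_mem hzR heR
  have hfE : Finite E := Finite.of_injective _ (Subgroup.inclusion_injective hEP)
  have hφE := H802.restrict_mem hκR hER
  have hφEr := H802.range_eq_of_mapsTo hφE (fun y => hE.2 E le_rfl _ hφE y)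
  obtain ⟨ψ, hψ, hψe⟩ := (isReceptive_of_stronglyClosed hF hE).2.2 E _ hφE hφEr
  -- the centralizer
  set C0 : Subgroup Ω := P ⊓ Subgroup.centralizer {(e : Ω)} with hC0
  have hC0P : C0 ≤ P := inf_le_left
  have hC0e : ∀ g ∈ C0, g * (e : Ω) = e * g := fun g hg =>
    (Subgroup.mem_centralizer_singleton_iff.1 hg.2)
  have hC0ext : C0 ≤ extender S E ((R.subtype.comp κ.toMonoidHom).comp (Subgroup.inclusion hER)) := by
    refine le_trans ?_ (H802.centralizerIn_le_extender S E _)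
    intro g hg
    refine ⟨hPS hg.1, Subgroup.mem_centralizer_iff.2 ?_⟩
    intro h hh
    have hgz : g * (z : Ω) = z * g := congrArg Subtype.val (hzc ⟨g, hg.1⟩)
    have hge := hC0e g hg
    rcases hsq1 ⟨h, hh.1⟩ (Subtype.ext hh.2) with h1 | h1 | h1 | h1
    · have : h = 1 := congrArg Subtype.val h1
      rw [this, one_mul, mul_one]
    · have : h = z := congrArg Subtype.val h1
      rw [this]; exact hgz.symm
    · have : h = e := congrArg Subtype.val h1
      rw [this]; exact hge.symm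
    · have : h = z * e := congrArg Subtype.val h1
      rw [this, ← mul_assoc, hgz, mul_assoc, ← hge, mul_assoc]
  have hEC0 : E ≤ C0 := by
    intro g hg
    refine ⟨hg.1, Subgroup.mem_centralizer_singleton_iff.2 ?_⟩
    exact congrArg Subtype.val (hcomm1 ⟨g, hg.1⟩ e (Subtype.ext hg.2) hee)
  have hχ := H802.restrict_mem hψ hC0ext
  set χ := ψ.comp (Subgroup.inclusion hC0ext) with hχdef
  have hχE : ∀ (g : Ω) (hg : g ∈ E) (hg' : g ∈ C0), χ ⟨g, hg'⟩ = (κ ⟨g, hER hg⟩ : R) := by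
    intro g hg hg'
    exact hψe g hg (hC0ext hg')
  have hχC : ∀ g : C0, χ g ∈ C0 := by
    intro g
    refine ⟨StronglyClosed.apply_mem hP hχ (x := g) g.2.1,
      Subgroup.mem_centralizer_singleton_iff.2 ?_⟩
    have h1 : χ ⟨z, hEC0 hzE⟩ = e := (hχE z hzE _).trans hκz
    rw [← h1, ← map_mul, ← map_mul]
    congr 1
    have h3 : (g : Ω) * z = z * g := congrArg Subtype.val (hzc ⟨g, g.2.1⟩)
    exact Subtype.ext h3
  have hfC0 : Finite C0 := Finite.of_injective _ (Subgroup.inclusion_injective hC0P)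
  obtain ⟨γ0, -, hγ0⟩ := H802.exists_aut hχ (H802.range_eq_of_mapsTo hχ hχC)
  have hpow : ∀ (j : ℕ) (g : Ω) (hg : g ∈ E), (((γ0 ^ j) ⟨g, hEC0 hg⟩ : C0) : Ω) =
      ((κ ^ j) ⟨g, hER hg⟩ : R) := by
    intro j
    induction j with
    | zero => intro g hg; rfl
    | succ j ih =>
      intro g hg
      rw [pow_succ, pow_succ, MulAut.mul_apply, MulAut.mul_apply]
      have h1 : ((κ ⟨g, hER hg⟩ : R) : Ω) ∈ E := hE.2 E le_rfl _ hφE ⟨g, hg⟩
      have h3 := ih _ h1
      have h4 : γ0 ⟨g, hEC0 hg⟩ = ⟨(κ ⟨g, hER hg⟩ : R), hEC0 h1⟩ := by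
        apply Subtype.ext
        rw [hγ0]
        exact hχE g hg _
      rw [h4, h3]
  have hfin : Finite (MulAut C0) := inferInstance
  obtain ⟨a, m', hm', hom⟩ := Nat.exists_eq_pow_mul_and_not_dvd (orderOf_pos γ0).ne' 2
    (by norm_num)
  have hγm : (γ0 ^ 2 ^ a) ^ m' = 1 := by rw [← pow_mul, ← hom, pow_orderOf_eq_one]
  have hγ1 : γ0 ^ 2 ^ a ≠ 1 := by
    intro h
    have h1 := hpow (2 ^ a) z hzE
    rw [h] at h1
    have h3 : (κ ^ 2 ^ a) ⟨z, hER hzE⟩ = ⟨z, hER hzE⟩ := Subtype.ext h1.symm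
    have hcop : (2 ^ a).Coprime (orderOf κ) := by
      refine Nat.Coprime.pow_left _ ((Nat.prime_two.coprime_iff_not_dvd).2 (fun h => hm ?_))
      exact h.trans (orderOf_dvd_of_pow_eq_one hκm)
    obtain ⟨k, hk⟩ := exists_pow_eq_self_of_coprime hcop
    have h4 : ∀ j : ℕ, ((κ ^ 2 ^ a) ^ j) ⟨z, hER hzE⟩ = ⟨z, hER hzE⟩ := by
      intro j
      induction j with
      | zero => rfl
      | succ j ih => rw [pow_succ, MulAut.mul_apply, h3, ih]
    have h5 := h4 k
    rw [hk] at h5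
    have h6 : (e : Ω) = z := by rw [← hκz]; exact congrArg Subtype.val h5
    exact heN ((Subtype.ext h6 : e = z) ▸ hzN)
  have hγ'm : (MulAut.congr (Subgroup.subgroupOfEquivOfLe hC0P).symm (γ0 ^ 2 ^ a)) ^ m' = 1 := by
    rw [← map_pow, hγm, map_one]
  have hγ'1 : MulAut.congr (Subgroup.subgroupOfEquivOfLe hC0P).symm (γ0 ^ 2 ^ a) ≠ 1 := by
    intro h
    exact hγ1 ((MulEquiv.map_eq_one_iff _).1 h)
  refine comm_of_aut h2P N hB hzN heN hzne hzz hee (C0.subgroupOf P) ?_ _ hm' hγ'm hγ'1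
  intro g
  rw [Subgroup.mem_subgroupOf]
  constructor
  · intro h
    exact Subtype.ext (hC0e g h)
  · intro h
    exact ⟨g.2, Subgroup.mem_centralizer_singleton_iff.2 (congrArg Subtype.val h)⟩

end Cfsg.Agent.H745.MetaTwo
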